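import Cfsg.Agent.H759.FusNormal
import Cfsg.Agent.H745.FusNormalCrit

/-!
# Automorphisms stabilizing a chain of strongly closed subgroups (helper789)
-/

set_option autoImplicit false

namespace Cfsg.Agent.H789.FusLayer

open Cfsg Cfsg.FusionSystem Cfsg.Agent.H759

variable {Ω : Type*} [Group Ω] {S : Subgroup Ω} {F : FusionSystem S}

/-- An `F`-automorphism of `A` which acts trivially on the factors of the chain `A ≥ A ∩ c n ≥ ... ≥ A ∩ c 0 = 1`, all `c i`
strongly closed, lies in `O_p(Aut_F(A))`. -/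
theorem mem_pCore_of_chain [Finite S] {p : ℕ} [Fact p.Prime] (hS : IsPGroup p S)
    (n : ℕ) (c : ℕ → Subgroup Ω) (h0 : c 0 = ⊥)
    (hc : ∀ i ≤ n, F.StronglyClosed (c i)) {R : Subgroup Ω} (hRS : R ≤ S) {κ : MulAut R}
    (hκ : κ ∈ F.autGroup R) (hκ' : ∀ x : R, (x : Ω)⁻¹ * (κ x : R) ∈ c n)
    (hκ'' : ∀ i < n, ∀ x : R, (x : Ω) ∈ c (i + 1) → (x : Ω)⁻¹ * (κ x : R) ∈ c i) :
    κ ∈ (pCore p (F.autGroup R)).map (F.autGroup R).subtype := by
  have hfR : Finite R := Finite.of_injective _ (Subgroup.inclusion_injective hRS)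
  let K : Subgroup (MulAut R) :=
    { carrier := {κ | κ ∈ F.autGroup R ∧ (∀ x : R, (x : Ω)⁻¹ * (κ x : R) ∈ c n) ∧
        ∀ i < n, ∀ x : R, (x : Ω) ∈ c (i + 1) → (x : Ω)⁻¹ * (κ x : R) ∈ c i}
      one_mem' := ⟨one_mem _, fun x => by simp, fun i _ x _ => by simp⟩
      mul_mem' := by
        rintro a b ⟨ha, ha', ha''⟩ ⟨hb, hb', hb''⟩
        have h1 : ∀ x : R, (x : Ω)⁻¹ * (a (b x) : R) = ((x : Ω)⁻¹ * (b x : R)) *
          (((b x : R) : Ω)⁻¹ * (a (b x) : R)) := fun x => by group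
        refine ⟨mul_mem ha hb, fun x => ?_, fun i hi x hx => ?_⟩
        · rw [MulAut.mul_apply, h1]
          exact mul_mem (hb' x) (ha' _)
        · rw [MulAut.mul_apply, h1]
          refine mul_mem (hb'' i hi x hx) (ha'' i hi _ ?_)
          exact StronglyClosed.apply_mem (hc (i + 1) hi) ((mem_autGroup F hRS).1 hb) hx
      inv_mem' := by
        rintro a ⟨ha, ha', ha''⟩
        refine ⟨inv_mem ha, fun x => ?_, fun i hi x hx => ?_⟩
        · have h1 := ha' (a⁻¹ x)
          rw [MulAut.apply_inv_self] at h1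
          have h2 := inv_mem h1
          simpa using h2
        · have hx' : ((a⁻¹ x : R) : Ω) ∈ c (i + 1) :=
            StronglyClosed.apply_mem (hc (i + 1) hi) ((mem_autGroup F hRS).1 (inv_mem ha)) hx
          have h1 := ha'' i hi (a⁻¹ x) hx'
          rw [MulAut.apply_inv_self] at h1
          have h2 := inv_mem h1
          simpa using h2 }
  have hKA : K ≤ F.autGroup R := fun k hk => hk.1
  have hKn : ∀ a ∈ F.autGroup R, ∀ k ∈ K, a * k * a⁻¹ ∈ K := by
    rintro a ha k ⟨hk, hk', hk''⟩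
    have ham := (mem_autGroup F hRS).1 ha
    have ham' := (mem_autGroup F hRS).1 (inv_mem ha)
    refine ⟨mul_mem (mul_mem ha hk) (inv_mem ha), fun x => ?_, fun i hi x hx => ?_⟩
    · have h1 := hk' (a⁻¹ x)
      have h2 : ((a ((a⁻¹ x)⁻¹ * k (a⁻¹ x)) : R) : Ω) ∈ c n :=
        StronglyClosed.apply_mem (hc n le_rfl) ham (x := (a⁻¹ x)⁻¹ * k (a⁻¹ x)) h1
      rw [map_mul, map_inv, MulAut.apply_inv_self] at h2
      exact h2
    · have hx' : ((a⁻¹ x : R) : Ω) ∈ c (i + 1) := StronglyClosed.apply_mem (hc (i + 1) hi) ham' hx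
      have h1 := hk'' i hi (a⁻¹ x) hx'
      have h2 : ((a ((a⁻¹ x)⁻¹ * k (a⁻¹ x)) : R) : Ω) ∈ c i :=
        StronglyClosed.apply_mem (hc i hi.le) ham (x := (a⁻¹ x)⁻¹ * k (a⁻¹ x)) h1
      rw [map_mul, map_inv, MulAut.apply_inv_self] at h2
      exact h2
  have hKp : IsPGroup p K := by
    rintro ⟨κ, hκ, hκ', hκ''⟩
    -- the chain `R ≥ R ∩ c n ≥ ... ≥ R ∩ c 0 = 1`
    obtain ⟨k, hk⟩ := exists_pow_eq_one_of_chain (hS.to_le hRS) κ (n + 1)
      (fun i => if i = 0 then ⊤ else (c (n + 1 - i)).subgroupOf R) (by simp)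
      (by
        show (if n + 1 = 0 then ⊤ else (c (n + 1 - (n + 1))).subgroupOf R) = ⊥
        rw [if_neg (by omega), Nat.sub_self, h0, Subgroup.bot_subgroupOf])
      (by
        intro i hi x hx
        rcases Nat.eq_zero_or_pos i with h | h
        · simp [h]
        · have hi0 : i ≠ 0 := by omega
          simp only [if_neg hi0] at hx ⊢
          exact StronglyClosed.apply_mem (hc _ (by omega)) ((mem_autGroup F hRS).1 hκ) hx)
      (by
        intro i hi x hx
        rcases Nat.eq_zero_or_pos i with h | h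
        · subst h
          simp only [zero_add, if_neg (show (1 : ℕ) ≠ 0 by omega), Nat.add_sub_cancel]
          exact hκ' x
        · have hi0 : i ≠ 0 := by omega
          have hi1 : i + 1 ≠ 0 := by omega
          simp only [if_neg hi0, if_neg hi1] at hx ⊢
          have h1 : n + 1 - i = (n + 1 - (i + 1)) + 1 := by omega
          rw [h1] at hx
          exact hκ'' _ (by omega) x hx)
    exact ⟨k, Subtype.ext hk⟩
  exact Cfsg.Agent.H745.le_map_pCore hKA hKn hKp ⟨hκ, hκ', hκ''⟩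

/-- A strongly closed `W ≥ R`, `W / R` abelian, `W = R (W ∩ C(R))`, is contained in every centric radical subgroup containing
the strongly closed subgroup `R`. -/
theorem le_of_radical_of_layers [Finite S] {p : ℕ} [Fact p.Prime] (hS : IsPGroup p S)
    {R W A : Subgroup Ω} (hR : F.StronglyClosed R) (hW : F.StronglyClosed W) (hRW : R ≤ W)
    (h1 : ∀ w ∈ W, ∃ r ∈ R, ∃ c ∈ Subgroup.centralizer (R : Set Ω), w = r * c)
    (h2 : ∀ x ∈ W, ∀ y ∈ W, x⁻¹ * (y * x * y⁻¹) ∈ R)
    (hRA : R ≤ A) (hAc : F.IsCentric A) (hAr : F.IsRadical p A) : W ≤ A := by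
  have hAS : A ≤ S := hAc.1
  have hfA : Finite A := Finite.of_injective _ (Subgroup.inclusion_injective hAS)
  by_contra hWA
  have hlt : A < A ⊔ W := lt_of_le_of_ne le_sup_left fun h => hWA (h ▸ le_sup_right)
  have hAWS : A ⊔ W ≤ S := sup_le hAS hW.1
  obtain ⟨g, hg, hgA, hgn⟩ := exists_mem_normalizer_not_mem hS hAWS hlt
  have hg' : g ∈ ((A ⊔ W : Subgroup Ω) : Set Ω) := hg
  rw [Subgroup.coe_mul_of_left_le_normalizer_right A W (hAS.trans (StronglyClosed.le_normalizer hW))]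
    at hg'
  obtain ⟨a, ha, w, hw, rfl⟩ := hg'
  have ha : a ∈ A := ha
  have hw : w ∈ W := hw
  obtain ⟨r, hr, d, hd, hwe⟩ := h1 w hw
  have hdW : d ∈ W := by
    have h3 := mul_mem (inv_mem (hRW hr)) hw
    rw [hwe] at h3
    rwa [inv_mul_cancel_left] at h3
  have har : a * r ∈ A := mul_mem ha (hRA hr)
  have hde : a * w = (a * r) * d := by rw [hwe, mul_assoc]
  simp only at hgA hgn
  rw [hde] at hgA hgn
  have hdA : d ∉ A := fun h => hgA (mul_mem har h)
  have hdn : d ∈ Subgroup.normalizer (A : Set Ω) := by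
    have h3 := mul_mem (inv_mem (Subgroup.le_normalizer har)) hgn
    rwa [inv_mul_cancel_left] at h3
  have hdS : d ∈ S := hW.1 hdW
  have hκ : conjAut A d hdn ∈ (pCore p (F.autGroup A)).map (F.autGroup A).subtype := by
    refine mem_pCore_of_chain hS 2 (fun i => if i = 0 then ⊥ else if i = 1 then R else W) (by simp)
      ?_ hAS (autGroup_map F (conj_mem' F hAS hdS (fun x => rfl))) ?_ ?_
    · intro i hi
      rcases Nat.eq_zero_or_pos i with h | h
      · simp only [h, if_true]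
        exact StronglyClosed.bot
      · by_cases h' : i = 1
        · simp only [h', if_true, if_neg (show (1 : ℕ) ≠ 0 by omega)]
          exact hR
        · simp only [if_neg h', if_neg (show i ≠ 0 by omega)]
          exact hW
    · intro x
      simp only [if_neg (show (2 : ℕ) ≠ 0 by omega), if_neg (show (2 : ℕ) ≠ 1 by omega)]
      rw [coe_conjAut]
      have h3 : (x : Ω)⁻¹ * (d * x * d⁻¹) = ((x : Ω)⁻¹ * d * x) * d⁻¹ := by group
      rw [h3]
      exact mul_mem (StronglyClosed.conj_mem' hW (hAS x.2) hdW) (inv_mem hdW)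
    · intro i hi x hx
      rw [coe_conjAut]
      rcases Nat.eq_zero_or_pos i with h | h
      · subst h
        simp only [zero_add, if_true, if_neg (show (1 : ℕ) ≠ 0 by omega)] at hx ⊢
        have h3 := (Subgroup.mem_centralizer_iff.1 hd) _ hx
        rw [Subgroup.mem_bot, ← h3]
        group
      · have hi1 : i = 1 := by omega
        subst hi1
        simp only [if_true, if_neg (show (1 : ℕ) ≠ 0 by omega), if_neg (show (1 + 1 : ℕ) ≠ 0 by omega),
          if_neg (show (1 + 1 : ℕ) ≠ 1 by omega)] at hx ⊢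
        exact h2 _ hx _ hdW
  rw [hAr.2] at hκ
  obtain ⟨x, hx⟩ := hκ
  -- `x⁻¹ d` centralizes `A`
  have h3 : (x : Ω)⁻¹ * d ∈ centralizerIn S A := by
    refine ⟨S.mul_mem (S.inv_mem (hAS x.2)) hdS,
      Subgroup.mem_centralizer_iff.2 fun y hy => ?_⟩
    have h4 : ((MulAut.conj x) ⟨y, hy⟩ : A) = conjAut A d hdn ⟨y, hy⟩ := by rw [hx]
    have h5 : (x : Ω) * y * (x : Ω)⁻¹ = d * y * d⁻¹ := by
      have := congrArg Subtype.val h4
      rw [coe_conjAut] at this
      exact this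
    calc y * ((x : Ω)⁻¹ * d) = (x : Ω)⁻¹ * (x * y * (x : Ω)⁻¹) * d := by group
      _ = (x : Ω)⁻¹ * (d * y * d⁻¹) * d := by rw [h5]
      _ = (x : Ω)⁻¹ * d * y := by group
  have h4 : (x : Ω)⁻¹ * d ∈ A := hAc.2 A (H802.isConj_refl F hAS) h3
  refine hdA ?_
  have h5 := mul_mem x.2 h4
  rwa [mul_inv_cancel_left] at h5

end Cfsg.Agent.H789.FusLayer
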