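import Cfsg.Agent.H218.SpreadNat

/-!
# Rank one quadratic groups (helper789)

`L` acts on the abelian group `M`, `A ≤ L` quadratic with fixed space `U`, and for all `x` outside the proper subgroup `N ≥ A`
`U ∩ xU = 0`, `U + xU = M`.  If `|M/U| ≤ |A/C_A(M)|` and no element of `A` outside the kernel fixes a vector outside `U`,
then `L` induces `SL₂(F)` on `M`.
-/

set_option autoImplicit false
set_option linter.unusedSectionVars false

namespace Cfsg.Agent.H789.RankOne

open Cfsg.Agent.H218.SpreadNat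

variable {L M : Type*} [Group L] [AddCommGroup M] [DistribMulAction L M]

/-- The elements of `M` fixed by `B`. -/
def fx (M : Type*) [AddCommGroup M] [DistribMulAction L M] (B : Subgroup L) : AddSubgroup M where
  carrier := {m | ∀ b ∈ B, b • m = m}
  zero_mem' := fun b _ => smul_zero b
  add_mem' := fun {x y} hx hy b hb => by rw [smul_add, hx b hb, hy b hb]
  neg_mem' := fun {x} hx b hb => by rw [smul_neg, hx b hb]

theorem mem_fx {B : Subgroup L} {m : M} : m ∈ fx M B ↔ ∀ b ∈ B, b • m = m := Iff.rfl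

/-- The kernel of the action. -/
def kr (L M : Type*) [Group L] [AddCommGroup M] [DistribMulAction L M] : Subgroup L where
  carrier := {g | ∀ m : M, g • m = m}
  one_mem' := fun m => one_smul L m
  mul_mem' := fun {a b} ha hb m => by rw [mul_smul, hb m, ha m]
  inv_mem' := fun {a} ha m => by
    conv_lhs => rw [← ha m]
    rw [inv_smul_smul]

theorem mem_kr {g : L} : g ∈ kr L M ↔ ∀ m : M, g • m = m := Iff.rfl

theorem kr_conj {g : L} (hg : g ∈ kr L M) (x : L) : x * g * x⁻¹ ∈ kr L M := fun m => by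
  rw [mul_smul, mul_smul, hg, smul_inv_smul]

/-- The configuration, second form: fixed space `U`, trivial intersections. -/
structure Rank (A N : Subgroup L) (U : AddSubgroup M) : Prop where
  ne : N ≠ ⊤
  AN : A ≤ N
  gen : ∀ x : L, x ∉ N → ∀ E : Subgroup L, kr L M ≤ E → A ≤ E → (∀ a ∈ A, x * a * x⁻¹ ∈ E) → E = ⊤
  fixU : ∀ a ∈ A, ∀ u ∈ U, a • u = u
  memU : ∀ a ∈ A, ∀ m : M, a • m - m ∈ U
  inter : ∀ x : L, x ∉ N → ∀ u ∈ U, x⁻¹ • u ∈ U → u = 0
  sup : ∀ x : L, x ∉ N → ∀ m : M, ∃ u ∈ U, ∃ w : M, x⁻¹ • w ∈ U ∧ u + w = m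
  free : ∀ a ∈ A, ∀ m : M, m ∉ U → a • m = m → a ∈ kr L M
  card : U.index ≤ (kr L M).relIndex A
  nt : ∃ m : M, m ≠ 0

namespace Rank

variable {A N : Subgroup L} {U : AddSubgroup M} (h : Rank A N U)
include h

theorem exists_notMem_N : ∃ x : L, x ∉ N := by
  by_contra hcon
  push Not at hcon
  exact h.ne (eq_top_iff.2 fun x _ => hcon x)

theorem add_A {a a' : L} (ha : a ∈ A) (ha' : a' ∈ A) (m : M) :
    (a * a') • m - m = (a • m - m) + (a' • m - m) := by
  rw [mul_smul]
  have h1 : a • (a' • m - m) = a' • m - m := h.fixU a ha _ (h.memU a' ha' m)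
  have h2 : a • (a' • m) = a • m + (a' • m - m) := by
    conv_rhs => rw [← h1]
    rw [← smul_add]; congr 1; abel
  rw [h2]; abel

/-- `xU`. -/
def W (_ : Rank A N U) (x : L) : AddSubgroup M where
  carrier := {m | x⁻¹ • m ∈ U}
  zero_mem' := by
    show x⁻¹ • (0 : M) ∈ U
    rw [smul_zero]; exact U.zero_mem
  add_mem' := fun {a b} ha hb => by
    show x⁻¹ • (a + b) ∈ U
    rw [smul_add]; exact U.add_mem ha hb
  neg_mem' := fun {a} ha => by
    show x⁻¹ • (-a) ∈ U
    rw [smul_neg]; exact U.neg_mem ha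

omit h in
theorem mem_W (h : Rank A N U) {x : L} {m : M} : m ∈ h.W x ↔ x⁻¹ • m ∈ U := Iff.rfl

theorem card_W (x : L) : Nat.card (h.W x) = Nat.card U := by
  refine Nat.card_congr
    { toFun := fun w => ⟨x⁻¹ • (w : M), w.2⟩
      invFun := fun u => ⟨x • (u : M), by
        show x⁻¹ • x • (u : M) ∈ U
        rw [inv_smul_smul]; exact u.2⟩
      left_inv := fun w => Subtype.ext (smul_inv_smul x (w : M))
      right_inv := fun u => Subtype.ext (inv_smul_smul x (u : M)) }

theorem index_eq [Finite M] : U.index = Nat.card U := by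
  obtain ⟨x, hx⟩ := h.exists_notMem_N
  rw [← h.card_W x]
  -- `M / U ≃ W`
  let f : h.W x →+ M ⧸ U := (QuotientAddGroup.mk' U).comp (h.W x).subtype
  have hf : Function.Bijective f := by
    constructor
    · rw [injective_iff_map_eq_zero]
      rintro ⟨w, hw⟩ h0
      have h1 : w ∈ U := (QuotientAddGroup.eq_zero_iff w).1 h0
      exact Subtype.ext (h.inter x hx w h1 hw)
    · intro q
      obtain ⟨m, rfl⟩ := QuotientAddGroup.mk_surjective q
      obtain ⟨u, hu, w, hw, rfl⟩ := h.sup x hx m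
      refine ⟨⟨w, hw⟩, ?_⟩
      show (QuotientAddGroup.mk w : M ⧸ U) = QuotientAddGroup.mk (u + w)
      rw [QuotientAddGroup.eq]
      have : -w + (u + w) = u := by abel
      rw [this]
      exact hu
  rw [AddSubgroup.index]
  exact (Nat.card_congr (Equiv.ofBijective f hf)).symm

theorem exists_notMem_U : ∃ m : M, m ∉ U := by
  obtain ⟨x, hx⟩ := h.exists_notMem_N
  obtain ⟨m, hm⟩ := h.nt
  by_contra hcon
  push Not at hcon
  exact hm (h.inter x hx m (hcon m) (hcon _))

/-- For `m ∉ U` the map `a ↦ a m - m` is a bijection of `A / C_A(M)` onto `U`. -/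
theorem bij [Finite M] [Finite L] {m : M} (hm : m ∉ U) :
    (kr L M).relIndex A = Nat.card U ∧ ∀ u ∈ U, ∃ a ∈ A, a • m - m = u := by
  let f : A →* Multiplicative U := MonoidHom.mk' (fun a => Multiplicative.ofAdd ⟨(a : L) • m - m, h.memU a a.2 m⟩) (by
    intro a b
    rw [← ofAdd_add]
    congr 1
    exact Subtype.ext (h.add_A a.2 b.2 m))
  have hker : f.ker = (kr L M).subgroupOf A := by
    ext a
    rw [MonoidHom.mem_ker, Subgroup.mem_subgroupOf]
    constructor
    · intro ha
      have h1 : ((a : L) • m - m : M) = 0 := congrArg (fun z : Multiplicative U => ((Multiplicative.toAdd z : U) : M)) ha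
      exact h.free a a.2 m hm (sub_eq_zero.1 h1)
    · intro ha
      show Multiplicative.ofAdd _ = _
      have h1 : (⟨(a : L) • m - m, h.memU a a.2 m⟩ : U) = 0 := Subtype.ext (sub_eq_zero.2 (ha m))
      rw [h1]; rfl
  have h1 : (kr L M).relIndex A = Nat.card f.range := by
    rw [Subgroup.relIndex, ← hker, Subgroup.index_ker]
  have h2 : Nat.card f.range ≤ Nat.card (Multiplicative U) := Subgroup.card_le_card_group _
  have h3 : Nat.card (Multiplicative U) = Nat.card U := rfl
  have h4 := h.card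
  rw [h.index_eq] at h4
  have h5 : (kr L M).relIndex A = Nat.card U := le_antisymm (by rw [h1]; exact h2) h4
  refine ⟨h5, fun u hu => ?_⟩
  have h6 : f.range = ⊤ := by
    apply Subgroup.eq_top_of_card_eq
    rw [← h1, h5, h3]
  have h7 : (Multiplicative.ofAdd ⟨u, hu⟩ : Multiplicative U) ∈ f.range := by rw [h6]; trivial
  obtain ⟨a, ha⟩ := h7
  exact ⟨a, a.2, congrArg (fun z : Multiplicative U => ((Multiplicative.toAdd z : U) : M)) ha⟩

/-- Every vector outside `U` lies in `a x U` for some `a ∈ A`. -/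
theorem cover [Finite M] [Finite L] {x : L} (hx : x ∉ N) {m : M} (hm : m ∉ U) :
    ∃ a ∈ A, (a * x)⁻¹ • m ∈ U := by
  obtain ⟨u, hu, w, hw, rfl⟩ := h.sup x hx m
  have hwU : w ∉ U := fun hwU => hm (U.add_mem hu hwU)
  obtain ⟨a, ha, hau⟩ := (h.bij hwU).2 u hu
  refine ⟨a, ha, ?_⟩
  have h1 : u + w = a • w := by rw [← hau]; abel
  rw [h1, mul_inv_rev, mul_smul, inv_smul_smul]
  exact hw

/-- `N` stabilises `U`. -/
theorem smul_mem [Finite M] [Finite L] {g : L} (hg : g ∈ N) {u : M} (hu : u ∈ U) : g • u ∈ U := by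
  by_contra hcon
  obtain ⟨x, hx⟩ := h.exists_notMem_N
  obtain ⟨a, ha, hax⟩ := h.cover hx hcon
  have h1 : g⁻¹ * (a * x) ∉ N := by
    intro h2
    apply hx
    have h3 := N.mul_mem (N.inv_mem (h.AN ha)) (N.mul_mem hg h2)
    have e : a⁻¹ * (g * (g⁻¹ * (a * x))) = x := by group
    rwa [e] at h3
  have h2 := h.inter _ h1 u hu (by
    rw [mul_inv_rev, inv_inv, mul_smul]
    exact hax)
  exact hcon (by rw [h2, smul_zero]; exact U.zero_mem)

/-- An element stabilising `U` lies in `N`. -/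
theorem mem_N {g : L} (hg : ∀ u ∈ U, g⁻¹ • u ∈ U) : g ∈ N := by
  by_contra hcon
  have h1 : ∀ u ∈ U, u = 0 := fun u hu => h.inter g hcon u hu (hg u hu)
  obtain ⟨m, hm⟩ := h.nt
  obtain ⟨u, hu, w, hw, rfl⟩ := h.sup g hcon m
  have h2 := h1 u hu
  have h3 := h1 _ hw
  have h4 : w = 0 := by
    have := congrArg (fun z => g • z) h3
    simpa using this
  exact hm (by rw [h2, h4, add_zero])

/-- `M` is elementary abelian. -/
theorem nsmul_eq_zero [Finite M] [Finite L] {p : ℕ} [Fact p.Prime] (hA : IsPGroup p A) (m : M) :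
    p • m = 0 := by
  classical
  obtain ⟨x, hx⟩ := h.exists_notMem_N
  obtain ⟨m₀, hm₀⟩ := h.exists_notMem_U
  -- an element of `A` outside the kernel with `p`-th power in the kernel
  have hex : ∃ a ∈ A, a ∉ kr L M ∧ a ^ p ∈ kr L M := by
    obtain ⟨a, ha, hak⟩ : ∃ a ∈ A, a ∉ kr L M := by
      by_contra hcon
      push Not at hcon
      have h1 : (kr L M).relIndex A = 1 := Subgroup.relIndex_eq_one.2 hcon
      have h2 := (h.bij hm₀).1
      rw [h1] at h2
      have h3 := h.index_eq
      rw [← h2, AddSubgroup.index_eq_one] at h3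
      rw [h3] at hm₀
      exact hm₀ trivial
    obtain ⟨n, hn⟩ := hA ⟨a, ha⟩
    have hn' : a ^ p ^ n ∈ kr L M := by
      have h1 : a ^ p ^ n = 1 := congrArg Subtype.val hn
      rw [h1]; exact one_mem _
    classical
    let P : ℕ → Prop := fun k => a ^ p ^ k ∈ kr L M
    have hP : ∃ k, P k := ⟨n, hn'⟩
    have hk := Nat.find_spec hP
    have hk0 : Nat.find hP ≠ 0 := by
      intro h0
      rw [h0] at hk
      apply hak
      have : a ^ p ^ 0 ∈ kr L M := hk
      rwa [pow_zero, pow_one] at this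
    obtain ⟨k, hkk⟩ := Nat.exists_eq_succ_of_ne_zero hk0
    refine ⟨a ^ p ^ k, pow_mem ha _, Nat.find_min hP (by omega), ?_⟩
    rw [← pow_mul, ← pow_succ]
    rw [hkk] at hk
    exact hk
  obtain ⟨a, ha, hak, hap⟩ := hex
  have hpow : ∀ (n : ℕ) (v : M), a ^ n • v - v = n • (a • v - v) := by
    intro n
    induction n with
    | zero => intro v; simp
    | succ n ih =>
      intro v
      rw [pow_succ, h.add_A (pow_mem ha n) ha, ih, succ_nsmul]
  have hp0 : ∀ v : M, p • (a • v - v) = 0 := by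
    intro v
    rw [← hpow, hap v, sub_self]
  -- `w ↦ a w - w` is onto `U`
  have hinj : Function.Injective (fun w : h.W x => (⟨a • (w : M) - w, h.memU a ha w⟩ : U)) := by
    intro w w' hww
    by_contra hne
    have h1 : a • ((w : M) - w') = (w : M) - w' := by
      have h2 : a • (w : M) - w = a • (w' : M) - w' := congrArg Subtype.val hww
      rw [smul_sub, sub_eq_sub_iff_add_eq_add]
      rw [sub_eq_sub_iff_add_eq_add] at h2
      rw [h2, add_comm]
    have h3 : (w : M) - w' ∉ U := by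
      intro h4
      apply hne
      have h5 : x⁻¹ • ((w : M) - w') ∈ U := by
        rw [smul_sub]
        exact U.sub_mem w.2 w'.2
      exact Subtype.ext (sub_eq_zero.1 (h.inter x hx _ h4 h5))
    exact hak (h.free a ha _ h3 h1)
  have hsurj := ((Nat.bijective_iff_injective_and_card _).2 ⟨hinj, h.card_W x⟩).2
  have hU : ∀ u ∈ U, p • u = 0 := by
    intro u hu
    obtain ⟨w, hw⟩ := hsurj ⟨u, hu⟩
    have h1 : a • (w : M) - w = u := congrArg Subtype.val hw
    rw [← h1]
    exact hp0 _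
  obtain ⟨u, hu, w, hw, rfl⟩ := h.sup x hx m
  rw [smul_add, hU u hu, zero_add]
  have h1 := hU _ hw
  have h2 := congrArg (fun z => x • z) h1
  simp only [smul_zero] at h2
  have h3 : x • p • x⁻¹ • w = p • w := by
    rw [smul_comm x p, smul_inv_smul]
  rw [← h3]
  exact h2

/-- **`L` induces `SL₂(F)` on `M`.** -/
theorem exists_natural [Finite M] [Finite L] {p : ℕ} [Fact p.Prime] (hA : IsPGroup p A) :
    ∃ (F : Type) (_ : Field F) (_ : Fintype F), Fintype.card F = Nat.card U ∧
      ∃ (ρ : L →* Matrix.SpecialLinearGroup (Fin 2) F) (e : M ≃+ (Fin 2 → F)),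
        Function.Surjective ρ ∧
        (∀ l m, e (l • m) = (ρ l : Matrix (Fin 2) (Fin 2) F).mulVec (e m)) ∧
        (∀ m, m ∈ U ↔ e m 1 = 0) := by
  classical
  obtain ⟨x, hx⟩ := h.exists_notMem_N
  obtain ⟨m₀, hm₀⟩ := h.exists_notMem_U
  let α : L →* (AddMonoid.End M)ˣ := (DistribMulAction.toAddMonoidEnd L M).toHomUnits
  let ι : L →* α.range := α.rangeRestrict
  have hιs : Function.Surjective ι := α.rangeRestrict_surjective
  have hsm : ∀ (l : L) (m : M), ι l • m = l • m := fun l m => rfl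
  have hker : ι.ker = kr L M := by
    ext l
    rw [MonoidHom.mem_ker]
    constructor
    · intro hl m
      rw [← hsm, hl, one_smul]
    · intro hl
      apply Subtype.ext
      apply Units.ext
      apply AddMonoidHom.ext
      intro m
      exact hl m
  have h1iff : ∀ l : L, ι l = 1 ↔ l ∈ kr L M := fun l => by rw [← hker, MonoidHom.mem_ker]
  set A' : Subgroup α.range := A.map ι with hA'
  set B' : Subgroup α.range := (A.map (MulAut.conj x).toMonoidHom).map ι with hB'
  have hmemB : ∀ b ∈ B', ∃ a ∈ A, b = ι (x * a * x⁻¹) := by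
    rintro _ ⟨_, ⟨a, ha, rfl⟩, rfl⟩
    exact ⟨a, ha, rfl⟩
  have hBmem : ∀ a ∈ A, ι (x * a * x⁻¹) ∈ B' := fun a ha => ⟨_, ⟨a, ha, rfl⟩, rfl⟩
  have hcardA : Nat.card A' = Nat.card U := by
    rw [hA', ← Subgroup.relIndex_ker, hker]
    exact (h.bij hm₀).1
  have hsp : Spread A' B' U (h.W x) := by
    refine
      { fixU := ?_, fixW := ?_, memU := ?_, memW := ?_, inf := ?_, sup := ?_, card := ?_, inj := ?_,
        inj' := ?_, inv := ?_, ne := ?_ }
    · rintro _ ⟨a, ha, rfl⟩ u hu
      exact h.fixU a ha u hu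
    · intro b hb w hw
      obtain ⟨a, ha, rfl⟩ := hmemB b hb
      rw [hsm, mul_smul, mul_smul, h.fixU a ha _ hw, smul_inv_smul]
    · rintro _ ⟨a, ha, rfl⟩ m
      exact h.memU a ha m
    · intro b hb m
      obtain ⟨a, ha, rfl⟩ := hmemB b hb
      show x⁻¹ • (_ - m) ∈ U
      rw [hsm, smul_sub, mul_smul, mul_smul, inv_smul_smul]
      exact h.memU a ha _
    · intro m hm hm'
      exact h.inter x hx m hm hm'
    · intro m
      obtain ⟨u, hu, w, hw, he⟩ := h.sup x hx m
      exact ⟨u, hu, w, hw, he⟩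
    · rw [hcardA, h.card_W]
    · rintro _ ⟨a, ha, rfl⟩ w hw hfix
      by_cases hw0 : w = 0
      · exact Or.inr hw0
      · refine Or.inl ((h1iff a).2 (h.free a ha w (fun hwU => hw0 (h.inter x hx w hwU hw)) hfix))
    · intro b hb u hu hfix
      obtain ⟨a, ha, rfl⟩ := hmemB b hb
      by_cases hu0 : u = 0
      · exact Or.inr hu0
      · refine Or.inl ((h1iff _).2 (kr_conj (h.free a ha (x⁻¹ • u)
          (fun hwU => hu0 (h.inter x hx u hu hwU)) ?_) x))
        rw [hsm, mul_smul, mul_smul] at hfix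
        have := congrArg (fun z => x⁻¹ • z) hfix
        simpa only [inv_smul_smul] using this
    · rintro _ ⟨a, ha, rfl⟩ ha1
      -- choose `w₀ ∈ W`, `w₀ ≠ 0`
      have hak : a ∉ kr L M := fun hk => ha1 ((h1iff a).2 hk)
      have hWne : ∃ w : M, x⁻¹ • w ∈ U ∧ w ≠ 0 := by
        obtain ⟨u, hu, w, hw, he⟩ := h.sup x hx m₀
        refine ⟨w, hw, ?_⟩
        rintro rfl
        rw [add_zero] at he
        exact hm₀ (he ▸ hu)
      obtain ⟨w₀, hw₀, hw₀0⟩ := hWne
      have hw₀U : w₀ ∉ U := fun hwU => hw₀0 (h.inter x hx w₀ hwU hw₀)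
      -- `a w₀ ∉ W`
      have haw : x⁻¹ • (a • w₀) ∉ U := by
        intro hc
        have h2 : x⁻¹ • (a • w₀ - w₀) ∈ U := by
          rw [smul_sub]; exact U.sub_mem hc hw₀
        have h3 := h.inter x hx _ (h.memU a ha w₀) h2
        exact hak (h.free a ha w₀ hw₀U (sub_eq_zero.1 h3))
      -- cover applied to the conjugate situation
      have hx' : x⁻¹ ∉ N := fun hc => hx (by simpa using N.inv_mem hc)
      obtain ⟨b, hb, hbx⟩ := h.cover hx' haw
      -- `b ∈ A`, `(b x⁻¹)⁻¹ x⁻¹ a w₀ ∈ U`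
      have hbx' : (x * b * x⁻¹)⁻¹ • (a • w₀) ∈ U := by
        have e : (x * b * x⁻¹)⁻¹ • (a • w₀) = (b * x⁻¹)⁻¹ • (x⁻¹ • (a • w₀)) := by
          rw [← mul_smul, ← mul_smul, ← mul_smul]
          congr 1
          group
        rw [e]; exact hbx
      -- `g = (x b x⁻¹)⁻¹ a x ∈ N`
      have hgN : (x * b * x⁻¹)⁻¹ * (a * x) ∈ N := by
        by_contra hc
        have h3 := h.inter _ hc _ hbx' (by
          rw [← mul_smul]
          have e : ((x * b * x⁻¹)⁻¹ * (a * x))⁻¹ * (x * b * x⁻¹)⁻¹ = x⁻¹ * a⁻¹ := by group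
          rw [e, mul_smul, inv_smul_smul]
          exact hw₀)
        have h4 : a • w₀ = 0 := by
          have := congrArg (fun z => (x * b * x⁻¹) • z) h3
          simpa only [smul_inv_smul, smul_zero] using this
        have h5 : w₀ = 0 := by
          have := congrArg (fun z => a⁻¹ • z) h4
          simpa only [inv_smul_smul, smul_zero] using this
        exact hw₀0 h5
      refine ⟨ι (x * b * x⁻¹), hBmem b hb, fun w hw => ?_⟩
      rw [hsm, hsm]
      -- `a w ∈ (x b x⁻¹) U`
      have h6 : (x * b * x⁻¹)⁻¹ • (a • w) ∈ U := by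
        have e : (x * b * x⁻¹)⁻¹ • (a • w) = ((x * b * x⁻¹)⁻¹ * (a * x)) • (x⁻¹ • w) := by
          rw [← mul_smul, ← mul_smul]
          congr 1
          group
        rw [e]
        exact h.smul_mem hgN hw
      set u' := (x * b * x⁻¹)⁻¹ • (a • w) with hu'
      have h7 : (x * b * x⁻¹) • u' = a • w := smul_inv_smul _ _
      have h8 : x⁻¹ • ((x * b * x⁻¹) • u' - u') ∈ U := by
        rw [smul_sub, mul_smul, mul_smul, inv_smul_smul]
        exact h.memU b hb _
      -- compare `w + (a w - w) = u' + ((x b x⁻¹) u' - u')`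
      have h9 : (a • w - w) - u' = ((x * b * x⁻¹) • u' - u') - w := by
        rw [h7]; abel
      have h10 : (a • w - w) - u' = 0 := by
        refine h.inter x hx _ (U.sub_mem (h.memU a ha w) h6) ?_
        rw [h9, smul_sub]
        exact U.sub_mem h8 hw
      have h11 : a • w - w = u' := sub_eq_zero.1 h10
      rw [h11, h7, ← h11]
      abel
    · by_contra hcon
      push Not at hcon
      have h2 : Nat.card A' = 1 := by
        rw [Nat.card_eq_one_iff_unique]
        exact ⟨⟨fun a b => Subtype.ext ((hcon a a.2).trans (hcon b b.2).symm)⟩, ⟨1⟩⟩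
      have h3 := h.index_eq
      rw [← hcardA, h2, AddSubgroup.index_eq_one] at h3
      rw [h3] at hm₀
      exact hm₀ trivial
  have hgen : A' ⊔ B' = ⊤ := by
    have h2 : (A' ⊔ B').comap ι = ⊤ := by
      refine h.gen x hx _ ?_ ?_ ?_
      · intro l hl
        rw [Subgroup.mem_comap, (h1iff l).2 hl]
        exact one_mem _
      · intro a ha
        exact Subgroup.mem_sup_left ⟨a, ha, rfl⟩
      · intro a ha
        exact Subgroup.mem_sup_right (hBmem a ha)
    rw [eq_top_iff]
    intro y _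
    obtain ⟨l, rfl⟩ := hιs y
    have h3 : l ∈ (A' ⊔ B').comap ι := by rw [h2]; trivial
    exact h3
  have hfr : Finite α.range := Finite.of_surjective ι hιs
  have hfA : Finite A' := inferInstance
  obtain ⟨F, iF, iFin, hcF, ρ, e, hρ, he, heU, heW⟩ := hsp.exists_natural
    (fun m => h.nsmul_eq_zero hA m) hgen
  exact ⟨F, iF, iFin, hcF.trans hcardA, ρ.comp ι, e, hρ.comp hιs, fun l m => he (ι l) m, heU⟩

end Rank

end Cfsg.Agent.H789.RankOne
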