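import Cfsg.Agent.H789.RankOne

/-!
# The rank one configuration around a central subgroup `t` (helper789)

`L` acts on the abelian `p`-group `M`, `t ≤ M` with stabiliser in `N < L`, `A ≤ N` a quadratic offender fixing `t`, and
`L = ⟨A, A^x⟩` (modulo the kernel) for all `x ∉ N`, `M = ⟨t^L⟩`.  Then some `g ∈ N` acts nontrivially on `t` and transitively on
the nonzero elements of `[t, ⟨g⟩]`.
-/

set_option autoImplicit false
set_option linter.unusedSectionVars false

namespace Cfsg.Agent.H789.RankOne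

variable {L M : Type*} [Group L] [AddCommGroup M] [DistribMulAction L M]

/-- The action on a quotient. -/
@[reducible] def actQ (C : AddSubgroup M) (hC : ∀ l : L, ∀ c ∈ C, l • c ∈ C) :
    DistribMulAction L (M ⧸ C) where
  smul l := QuotientAddGroup.map C C (DistribSMul.toAddMonoidHom M l) (fun c hc => hC l c hc)
  one_smul q := by
    obtain ⟨m, rfl⟩ := QuotientAddGroup.mk_surjective q
    show (QuotientAddGroup.mk ((1 : L) • m) : M ⧸ C) = _
    rw [one_smul]
  mul_smul a b q := by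
    obtain ⟨m, rfl⟩ := QuotientAddGroup.mk_surjective q
    show (QuotientAddGroup.mk ((a * b) • m) : M ⧸ C) = QuotientAddGroup.mk (a • b • m)
    rw [mul_smul]
  smul_zero l := map_zero _
  smul_add l := map_add _

theorem smul_mem_fx_top (l : L) : ∀ c ∈ fx M (⊤ : Subgroup L), l • c ∈ fx M (⊤ : Subgroup L) := by
  intro c hc
  rw [hc l trivial]
  exact hc

/-- The configuration, first form. -/
structure Setup (A N : Subgroup L) (t : AddSubgroup M) : Prop where
  ne : N ≠ ⊤
  AN : A ≤ N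
  stab : ∀ g ∈ N, ∀ m ∈ t, g • m ∈ t
  fixt : ∀ a ∈ A, ∀ m ∈ t, a • m = m
  gen : ∀ x : L, x ∉ N → ∀ E : Subgroup L, kr L M ≤ E → A ≤ E → (∀ a ∈ A, x * a * x⁻¹ ∈ E) → E = ⊤
  quad : ∀ a ∈ A, ∀ b ∈ A, ∀ m : M, b • (a • m - m) = a • m - m
  span : ∀ D : AddSubgroup M, (∀ l : L, ∀ m ∈ t, l • m ∈ D) → D = ⊤
  core : ∀ a ∈ A, (∀ x : L, x⁻¹ * a * x ∈ N) → a ∈ kr L M
  card : (fx M A).index ≤ (kr L M).relIndex A
  mov : ∃ m ∈ t, ∃ l : L, l • m ≠ m

namespace Setup

variable {A N : Subgroup L} {t : AddSubgroup M} (h : Setup A N t)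
include h

theorem exists_notMem_N : ∃ x : L, x ∉ N := by
  by_contra hcon
  push Not at hcon
  exact h.ne (eq_top_iff.2 fun x _ => hcon x)

theorem inter {x : L} (hx : x ∉ N) {m : M} (hm : m ∈ fx M A) (hm' : x⁻¹ • m ∈ fx M A) :
    m ∈ fx M (⊤ : Subgroup L) := by
  have h1 := h.gen x hx (MulAction.stabilizer L m) (fun g hg => hg m) (fun a ha => hm a ha)
    (fun a ha => by
      rw [MulAction.mem_stabilizer_iff, mul_smul, mul_smul, hm' a ha, smul_inv_smul])
  intro l _
  have h2 : l ∈ MulAction.stabilizer L m := by rw [h1]; trivial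
  exact h2

theorem sup {x : L} (hx : x ∉ N) (m : M) : ∃ u ∈ fx M A, ∃ w : M, x⁻¹ • w ∈ fx M A ∧ u + w = m := by
  -- `D = fx A + x fx A`
  let D : AddSubgroup M :=
    { carrier := {m | ∃ u ∈ fx M A, ∃ w : M, x⁻¹ • w ∈ fx M A ∧ u + w = m}
      zero_mem' := ⟨0, (fx M A).zero_mem, 0, by rw [smul_zero]; exact (fx M A).zero_mem, add_zero 0⟩
      add_mem' := by
        rintro _ _ ⟨u, hu, w, hw, rfl⟩ ⟨u', hu', w', hw', rfl⟩
        refine ⟨u + u', (fx M A).add_mem hu hu', w + w', ?_, add_add_add_comm _ _ _ _⟩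
        rw [smul_add]; exact (fx M A).add_mem hw hw'
      neg_mem' := by
        rintro _ ⟨u, hu, w, hw, rfl⟩
        refine ⟨-u, (fx M A).neg_mem hu, -w, ?_, by abel⟩
        rw [smul_neg]; exact (fx M A).neg_mem hw }
  have hUD : ∀ u ∈ fx M A, u ∈ D := fun u hu =>
    ⟨u, hu, 0, by rw [smul_zero]; exact (fx M A).zero_mem, add_zero u⟩
  have hWD : ∀ w : M, x⁻¹ • w ∈ fx M A → w ∈ D := fun w hw =>
    ⟨0, (fx M A).zero_mem, w, hw, zero_add w⟩
  let E : Subgroup L :=
    { carrier := {l | ∀ m : M, l • m - m ∈ D}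
      one_mem' := fun m => by rw [one_smul, sub_self]; exact D.zero_mem
      mul_mem' := by
        intro a b ha hb m
        have e : (a * b) • m - m = (a • (b • m) - b • m) + (b • m - m) := by rw [mul_smul]; abel
        rw [e]
        exact D.add_mem (ha _) (hb _)
      inv_mem' := by
        intro a ha m
        have e : a⁻¹ • m - m = -(a • (a⁻¹ • m) - a⁻¹ • m) := by rw [smul_inv_smul]; abel
        rw [e]
        exact D.neg_mem (ha _) }
  have hE : E = ⊤ := by
    refine h.gen x hx E (fun g hg m => ?_) (fun a ha m => ?_) (fun a ha m => ?_)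
    · rw [hg m, sub_self]; exact D.zero_mem
    · exact hUD _ fun b hb => h.quad a ha b hb m
    · apply hWD
      rw [smul_sub, mul_smul, mul_smul, inv_smul_smul]
      exact fun b hb => h.quad a ha b hb _
  have hD : D = ⊤ := by
    refine h.span D fun l m hm => ?_
    have h1 : l ∈ E := by rw [hE]; trivial
    have h2 : m ∈ D := hUD m fun a ha => h.fixt a ha m hm
    have h3 := D.add_mem (h1 m) h2
    rwa [sub_add_cancel] at h3
  have h4 : m ∈ D := by rw [hD]; trivial
  exact h4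

theorem free {a : L} (ha : a ∈ A) {m : M} (hm : m ∉ fx M A) (hfix : a • m - m ∈ fx M (⊤ : Subgroup L)) :
    a ∈ kr L M := by
  refine h.core a ha fun x => ?_
  by_cases hx : x ∈ N
  · exact N.mul_mem (N.mul_mem (N.inv_mem hx) (h.AN ha)) hx
  by_contra hcon
  obtain ⟨u, hu, w, hw, rfl⟩ := h.sup hx m
  have hwU : w ∉ fx M A := fun hwU => hm ((fx M A).add_mem hu hwU)
  have haw : a • w - w ∈ fx M (⊤ : Subgroup L) := by
    have e : a • (u + w) - (u + w) = a • w - w := by
      rw [smul_add, hu a ha]; abel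
    rwa [e] at hfix
  -- `w` is fixed by `x A x⁻¹` and by `a x A x⁻¹ a⁻¹`
  set c := a • w - w with hc
  have haw' : a • w = w + c := by rw [hc]; abel
  have hac : ∀ l : L, l • c = c := fun l => haw l trivial
  have hainv : a⁻¹ • w = w - c := by
    have h1 : a⁻¹ • (a • w) = a⁻¹ • (w + c) := by rw [haw']
    rw [inv_smul_smul, smul_add, hac] at h1
    rw [eq_sub_iff_add_eq]
    exact h1.symm
  have hyx : x⁻¹ * a * x ∉ N := hcon
  -- apply `inter` with `y = x⁻¹ a x` to `x⁻¹ w`
  have h2 := h.inter hyx hw (by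
    rw [← mul_smul]
    have e : (x⁻¹ * a * x)⁻¹ * x⁻¹ = x⁻¹ * a⁻¹ := by group
    rw [e, mul_smul, hainv, smul_sub]
    refine (fx M A).sub_mem hw ?_
    rw [hac]
    exact fun b _ => hac b)
  -- then `w` is fixed by all
  apply hwU
  intro b _
  have h3 : x • (x⁻¹ • w) = x⁻¹ • w := h2 x trivial
  rw [smul_inv_smul] at h3
  rw [h3]
  exact h2 b trivial

theorem rank [Finite M] {C : AddSubgroup M} (hC : C = fx M (⊤ : Subgroup L))
    [DistribMulAction L (M ⧸ C)]
    (hsm : ∀ (l : L) (m : M), l • (QuotientAddGroup.mk' C m) = QuotientAddGroup.mk' C (l • m)) :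
    Rank A N ((fx M A).map (QuotientAddGroup.mk' C)) := by
  have hCA : C ≤ fx M A := fun c hc a _ => (hC.le hc) a trivial
  have hz : ∀ m : M, QuotientAddGroup.mk' C m = 0 ↔ m ∈ C := fun m => QuotientAddGroup.eq_zero_iff m
  have hmemU : ∀ m : M, QuotientAddGroup.mk' C m ∈ (fx M A).map (QuotientAddGroup.mk' C) ↔ m ∈ fx M A := by
    intro m
    constructor
    · rintro ⟨u, hu, hum⟩
      have h1 : QuotientAddGroup.mk' C (m - u) = 0 := by
        rw [map_sub, hum, sub_self]
      have h2 := (fx M A).add_mem (hCA ((hz _).1 h1)) hu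
      rwa [sub_add_cancel] at h2
    · exact fun hm => ⟨m, hm, rfl⟩
  have hkr : kr L M ≤ kr L (M ⧸ C) := by
    intro g hg q
    obtain ⟨m, rfl⟩ := QuotientAddGroup.mk'_surjective C q
    rw [hsm, hg m]
  have hfree : ∀ a ∈ A, ∀ m : M, m ∉ fx M A → a • (QuotientAddGroup.mk' C m) = QuotientAddGroup.mk' C m →
      a ∈ kr L M := by
    intro a ha m hm hfix
    refine h.free ha hm ?_
    rw [← hC, ← hz, map_sub, ← hsm, hfix, sub_self]
  obtain ⟨x₀, hx₀⟩ := h.exists_notMem_N
  have hex : ∃ m : M, m ∉ fx M A := by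
    by_contra hcon
    push Not at hcon
    obtain ⟨m, -, l, hl⟩ := h.mov
    exact hl (h.inter hx₀ (hcon m) (hcon _) l trivial)
  refine
    { ne := h.ne
      AN := h.AN
      gen := fun x hx E hE => h.gen x hx E (hkr.trans hE)
      fixU := ?_, memU := ?_, inter := ?_, sup := ?_, free := ?_, card := ?_, nt := ?_ }
  · rintro a ha _ ⟨u, hu, rfl⟩
    rw [hsm, hu a ha]
  · intro a ha q
    obtain ⟨m, rfl⟩ := QuotientAddGroup.mk'_surjective C q
    rw [hsm, ← map_sub, hmemU]
    exact fun b hb => h.quad a ha b hb m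
  · rintro x hx _ ⟨u, hu, rfl⟩ hxu
    rw [hsm, hmemU] at hxu
    rw [hz]
    rw [hC]
    exact h.inter hx hu hxu
  · intro x hx q
    obtain ⟨m, rfl⟩ := QuotientAddGroup.mk'_surjective C q
    obtain ⟨u, hu, w, hw, rfl⟩ := h.sup hx m
    refine ⟨_, (hmemU u).2 hu, QuotientAddGroup.mk' C w, ?_, (map_add _ _ _).symm⟩
    rw [hsm, hmemU]
    exact hw
  · intro a ha q hq hfix
    obtain ⟨m, rfl⟩ := QuotientAddGroup.mk'_surjective C q
    rw [hmemU] at hq
    exact hkr (hfree a ha m hq hfix)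
  · have h1 : ((fx M A).map (QuotientAddGroup.mk' C)).index = (fx M A).index := by
      rw [← AddSubgroup.index_comap_of_surjective _ (QuotientAddGroup.mk'_surjective C)]
      congr 1
      ext m
      exact hmemU m
    have h2 : (kr L (M ⧸ C)).relIndex A = (kr L M).relIndex A := by
      rw [← Subgroup.inf_relIndex_right (kr L (M ⧸ C)) A, ← Subgroup.inf_relIndex_right (kr L M) A]
      congr 1
      ext a
      constructor
      · rintro ⟨h3, h4⟩
        obtain ⟨m, hm⟩ := hex
        exact ⟨hfree a h4 m hm (h3 _), h4⟩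
      · rintro ⟨h3, h4⟩
        exact ⟨hkr h3, h4⟩
    rw [h1, h2]
    exact h.card
  · obtain ⟨m, -, l, hl⟩ := h.mov
    refine ⟨QuotientAddGroup.mk' C m, fun h0 => hl ?_⟩
    exact (hC.le ((hz m).1 h0)) l trivial

end Setup

end Cfsg.Agent.H789.RankOne
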